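import Cfsg.Agent.H823.Converse
set_option linter.all false

/-!
# Killing odd subgroups normalised by a large extraspecial subgroup

* `eq_bot_of_fix`: `Large Q z`, `K` of odd order normalised by `Q`, `b ∈ Q - ⟨z⟩` an involution with `C_K(b) = 1`; then
  `K = 1`.
-/

set_option autoImplicit false

namespace Cfsg.Agent.H823

open Cfsg Cfsg.Agent.Co2Type.Quad Cfsg.Agent.LargeExtra.Base

variable {G : Type*} [Group G] {Q : Subgroup G} {z : G}

/-- in a group of odd order only `1` has square one -/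
theorem eq_one_of_sq {K : Subgroup G} (hK : Odd (Nat.card K)) {k : G} (hk : k ∈ K) (hkk : k * k = 1) : k = 1 := by
  have h2 : orderOf k ∣ 2 := orderOf_dvd_of_pow_eq_one (by rw [pow_two]; exact hkk)
  have h3 : orderOf k ∣ Nat.card K := by
    have := orderOf_dvd_natCard (⟨k, hk⟩ : K)
    rwa [← Subgroup.orderOf_coe] at this
  rw [← orderOf_eq_one_iff]
  exact Nat.eq_one_of_dvd_coprimes (Nat.coprime_two_left.2 hK) h2 h3

theorem eq_bot_of_fix (h : Large Q z) {K : Subgroup G} (hK : Odd (Nat.card K))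
    (hn : Q ≤ Subgroup.normalizer (K : Set G)) {b : G} (hbQ : b ∈ Q) (hb2 : b * b = 1) (hb1 : b ≠ 1) (hbz : b ≠ z)
    (hfix : ∀ k ∈ K, k * b = b * k → k = 1) : K = ⊥ := by
  have hinv : ∀ k ∈ K, z * k * z⁻¹ = k⁻¹ := fun k hk => inverts h hK hn hk
  have h2 : ∀ k ∈ K, b * k * b⁻¹ = k⁻¹ := by
    intro k hk
    obtain ⟨d, hd, l, hl, h3, h4, rfl⟩ := Cfsg.Agent.Lib.KleinGen.exists_centralizer_mul_inverted K hK
      b hb2 (fun k hk => (Subgroup.mem_normalizer_iff.1 (hn hbQ) k).1 hk) hk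
    have h5 : d = 1 := hfix d hd h3.symm
    rw [h5, one_mul]; exact h4
  obtain ⟨c, hcQ, hc⟩ := exists_not_comm h hbQ hb1 hbz
  have hcaz : c * b * c⁻¹ = b * z := by
    rw [hc]
    have h3 : c * z = z * c := h.comm_z c hcQ
    calc b * c * z * c⁻¹ = b * (c * z) * c⁻¹ := by group
      _ = b * (z * c) * c⁻¹ := by rw [h3]
      _ = b * z := by group
  rw [eq_bot_iff]
  intro k hk
  rw [Subgroup.mem_bot]
  apply eq_one_of_sq hK hk
  have h3 : c * k * c⁻¹ ∈ K := (Subgroup.mem_normalizer_iff.1 (hn hcQ) k).1 hk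
  have h4 : (b * z) * (c * k * c⁻¹) * (b * z)⁻¹ = c * k * c⁻¹ := by
    calc (b * z) * (c * k * c⁻¹) * (b * z)⁻¹ = b * (z * (c * k * c⁻¹) * z⁻¹) * b⁻¹ := by group
      _ = b * (c * k * c⁻¹)⁻¹ * b⁻¹ := by rw [hinv _ h3]
      _ = c * k * c⁻¹ := by rw [h2 _ (inv_mem h3), inv_inv]
  rw [← hcaz] at h4
  have h5 : b * k * b⁻¹ = k := by
    calc b * k * b⁻¹ = c⁻¹ * (c * b * c⁻¹ * (c * k * c⁻¹) * (c * b * c⁻¹)⁻¹) * c := by group
      _ = c⁻¹ * (c * k * c⁻¹) * c := by rw [h4]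
      _ = k := by group
  rw [h2 k hk] at h5
  calc k * k = k⁻¹ * k := by rw [h5]
    _ = 1 := inv_mul_cancel k

/-- if `C_K(b)` centralises `z` then `K = 1` -/
theorem eq_bot_of_comm (h : Large Q z) {K : Subgroup G} (hK : Odd (Nat.card K))
    (hn : Q ≤ Subgroup.normalizer (K : Set G)) {b : G} (hbQ : b ∈ Q) (hb2 : b * b = 1) (hb1 : b ≠ 1) (hbz : b ≠ z)
    (hfix : ∀ k ∈ K, k * b = b * k → k * z * k⁻¹ * z⁻¹ = 1) : K = ⊥ := by
  refine eq_bot_of_fix h hK hn hbQ hb2 hb1 hbz fun k hk hkb => ?_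
  refine eq_one_of_comm h hK hn hk ?_
  have := hfix k hk hkb
  calc k * z = (k * z * k⁻¹ * z⁻¹) * (z * k) := by group
    _ = z * k := by rw [this, one_mul]

end Cfsg.Agent.H823
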