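import Cfsg.Agent.H823.PairX
set_option linter.all false

/-!
# `X / R ≅ S₃`, `R = O₂(X)`, `N_G(V) = X C_G(V)` for a pair of large extraspecial subgroups
-/

set_option autoImplicit false

namespace Cfsg.Agent.H823

open Cfsg Cfsg.Agent.Co2Type.Quad Cfsg.Agent.LargeExtra.Base Cfsg.Agent.LargeExtra.TwoCentral

variable {G : Type*} [Group G] {Q A : Subgroup G} {z a : G}

/-- the three involutions of `V` -/
abbrev TT (z a : G) := {v : G // v = z ∨ v = a ∨ v = a * z}

/-- the action of `N_G(V)` on the three involutions of `V` -/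
def actT (p : Pair Q z A a) :
    ↥(Subgroup.normalizer ((Subgroup.closure ({z, a} : Set G) : Subgroup G) : Set G)) →* Equiv.Perm (TT z a) where
  toFun n :=
    { toFun := fun v => ⟨(n : G) * v * (n : G)⁻¹, conj_mem_T p n.2 v.2⟩
      invFun := fun v => ⟨(n : G)⁻¹ * v * (n : G)⁻¹⁻¹, conj_mem_T p (inv_mem n.2) v.2⟩
      left_inv := fun v => Subtype.ext (by
        show (n : G)⁻¹ * ((n : G) * v * (n : G)⁻¹) * (n : G)⁻¹⁻¹ = v
        group)
      right_inv := fun v => Subtype.ext (by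
        show (n : G) * ((n : G)⁻¹ * v * (n : G)⁻¹⁻¹) * (n : G)⁻¹ = v
        group) }
  map_one' := by
    ext v
    show (1 : G) * v * (1 : G)⁻¹ = v
    group
  map_mul' n m := by
    ext v
    show ((n : G) * m) * v * ((n : G) * m)⁻¹ = n * (m * v * (m : G)⁻¹) * (n : G)⁻¹
    group

theorem actT_apply (p : Pair Q z A a)
    (n : ↥(Subgroup.normalizer ((Subgroup.closure ({z, a} : Set G) : Subgroup G) : Set G))) (v : TT z a) :
    (actT p n v : G) = (n : G) * v * (n : G)⁻¹ := rfl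

theorem az_ne_z (p : Pair Q z A a) : a * z ≠ z := fun h => p.la.z_ne (mul_eq_right.1 h)

theorem az_ne_a (p : Pair Q z A a) : a * z ≠ a := fun h => p.lz.z_ne (mul_eq_left.1 h)

/-- numbering of the three involutions -/
noncomputable def eT (p : Pair Q z A a) : Fin 3 ≃ TT z a :=
  Equiv.ofBijective (fun i => (![⟨z, Or.inl rfl⟩, ⟨a, Or.inr (Or.inl rfl)⟩, ⟨a * z, Or.inr (Or.inr rfl)⟩] i : TT z a))
    (by
      constructor
      · intro i j hij
        have h1 := az_ne_z p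
        have h2 := az_ne_a p
        have h3 := p.ne
        have hij' := congrArg Subtype.val hij
        fin_cases i <;> fin_cases j <;> first | rfl | exfalso
        · exact h3 hij'.symm
        · exact h1 hij'.symm
        · exact h3 hij'
        · exact h2 hij'.symm
        · exact h1 hij'
        · exact h2 hij'
      · rintro ⟨v, rfl | rfl | rfl⟩
        · exact ⟨0, rfl⟩
        · exact ⟨1, rfl⟩
        · exact ⟨2, rfl⟩)

theorem eT_zero (p : Pair Q z A a) : (eT p 0 : G) = z := rfl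
theorem eT_one (p : Pair Q z A a) : (eT p 1 : G) = a := rfl
theorem eT_two (p : Pair Q z A a) : (eT p 2 : G) = a * z := rfl

/-- `X` acts on the three involutions -/
noncomputable def actX (p : Pair Q z A a) : ↥(Q ⊔ A) →* Equiv.Perm (Fin 3) :=
  ((eT p).symm.permCongrHom.toMonoidHom.comp (actT p)).comp (Subgroup.inclusion (X_le_normV p))

theorem actX_apply (p : Pair Q z A a) (x : ↥(Q ⊔ A)) (i : Fin 3) :
    (eT p (actX p x i) : G) = (x : G) * (eT p i) * (x : G)⁻¹ := by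
  have : actX p x i = (eT p).symm (actT p (Subgroup.inclusion (X_le_normV p) x) (eT p i)) := rfl
  rw [this, Equiv.apply_symm_apply, actT_apply]
  rfl

theorem actX_eq_one (p : Pair Q z A a) (x : ↥(Q ⊔ A)) : actX p x = 1 ↔ (x : G) ∈ RR Q A z a := by
  constructor
  · intro hx
    have h1 : ∀ i, (eT p i : G) = (x : G) * (eT p i) * (x : G)⁻¹ := by
      intro i
      rw [← actX_apply, hx]; rfl
    refine mem_R_of_mem_X p x.2 ?_ ?_
    · have := h1 0
      rw [eT_zero] at this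
      exact (eq_mul_inv_iff_mul_eq.1 this).symm
    · have := h1 1
      rw [eT_one] at this
      exact (eq_mul_inv_iff_mul_eq.1 this).symm
  · intro hx
    obtain ⟨h1, h2⟩ := RR_le_cV p hx
    ext i
    congr 1
    apply (eT p).injective
    apply Subtype.ext
    rw [actX_apply]
    show (x : G) * (eT p i) * (x : G)⁻¹ = eT p i
    rw [mul_inv_eq_iff_eq_mul]
    fin_cases i
    · exact h1
    · exact h2
    · show (x : G) * (a * z) = a * z * x
      rw [← mul_assoc, h2, mul_assoc, h1, ← mul_assoc]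

theorem actX_surjective (p : Pair Q z A a) : Function.Surjective (actX p) := by
  obtain ⟨q, hq, h1⟩ := exists_q0 p
  obtain ⟨b, hb, h2⟩ := exists_q0 p.symm
  have hqX : q ∈ Q ⊔ A := Subgroup.mem_sup_left hq
  have hbX : b ∈ Q ⊔ A := Subgroup.mem_sup_right hb
  have e1 : actX p ⟨q, hqX⟩ = Equiv.swap 1 2 := by
    ext i
    congr 1
    apply (eT p).injective
    apply Subtype.ext
    rw [actX_apply]
    fin_cases i
    · exact conj_q_z p hq
    · exact conj_q_a p hq h1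
    · exact conj_q_az p hq h1
  have e2 : actX p ⟨b, hbX⟩ = Equiv.swap 0 2 := by
    ext i
    congr 1
    apply (eT p).injective
    apply Subtype.ext
    rw [actX_apply]
    fin_cases i
    · exact conj_b_z p hb h2
    · exact conj_b_a p hb
    · exact conj_b_az p hb h2
  intro σ
  have key : ∀ σ : Equiv.Perm (Fin 3), σ = 1 ∨ σ = Equiv.swap 1 2 ∨ σ = Equiv.swap 0 2 ∨
      σ = Equiv.swap 1 2 * Equiv.swap 0 2 ∨ σ = Equiv.swap 0 2 * Equiv.swap 1 2 ∨
      σ = Equiv.swap 1 2 * Equiv.swap 0 2 * Equiv.swap 1 2 := by decide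
  rcases key σ with rfl | rfl | rfl | rfl | rfl | rfl
  · exact ⟨1, map_one _⟩
  · exact ⟨_, e1⟩
  · exact ⟨_, e2⟩
  · exact ⟨⟨q, hqX⟩ * ⟨b, hbX⟩, by rw [map_mul, e1, e2]⟩
  · exact ⟨⟨b, hbX⟩ * ⟨q, hqX⟩, by rw [map_mul, e1, e2]⟩
  · exact ⟨⟨q, hqX⟩ * ⟨b, hbX⟩ * ⟨q, hqX⟩, by rw [map_mul, map_mul, e1, e2]⟩

theorem actX_ker (p : Pair Q z A a) : (actX p).ker = (RR Q A z a).subgroupOf (Q ⊔ A) := by
  ext x
  rw [MonoidHom.mem_ker, Subgroup.mem_subgroupOf, actX_eq_one]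

/-- `X / R ≅ S₃` -/
theorem quot_equiv (p : Pair Q z A a) : ∃ _ : ((RR Q A z a).subgroupOf (Q ⊔ A)).Normal,
    Nonempty (↥(Q ⊔ A) ⧸ (RR Q A z a).subgroupOf (Q ⊔ A) ≃* Equiv.Perm (Fin 3)) := by
  have h : ((RR Q A z a).subgroupOf (Q ⊔ A)).Normal := by
    rw [← actX_ker p]; infer_instance
  refine ⟨h, ⟨?_⟩⟩
  exact (QuotientGroup.quotientMulEquivOfEq (actX_ker p).symm).trans
    (QuotientGroup.quotientKerEquivOfSurjective (actX p) (actX_surjective p))

/-- `R` is a 2-group -/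
theorem RR_isPGroup (p : Pair Q z A a) : IsPGroup 2 (RR Q A z a) := by
  have h1 : IsPGroup 2 ↥(Q ⊓ Subgroup.centralizer ({a} : Set G)) :=
    (isPGroup p.lz).to_le inf_le_left
  have h2 : IsPGroup 2 ↥(A ⊓ Subgroup.centralizer ({z} : Set G)) :=
    (isPGroup p.la).to_le inf_le_left
  have h3 : A ⊓ Subgroup.centralizer ({z} : Set G) ≤
      Subgroup.normalizer ((Q ⊓ Subgroup.centralizer ({a} : Set G) : Subgroup G) : Set G) := by
    rintro x ⟨hx, hxz⟩
    have hxz' := Subgroup.mem_centralizer_singleton_iff.1 hxz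
    have hxa' := p.la.comm_z x hx
    have key : ∀ x : G, x * z = z * x → x * a = a * x → ∀ y ∈ Q ⊓ Subgroup.centralizer ({a} : Set G),
        x * y * x⁻¹ ∈ Q ⊓ Subgroup.centralizer ({a} : Set G) := by
      rintro x hxz hxa y ⟨hy, hya⟩
      refine ⟨p.lz.conj_mem x hxz y hy, Subgroup.mem_centralizer_singleton_iff.2 ?_⟩
      have hya' := Subgroup.mem_centralizer_singleton_iff.1 hya
      have hxa'' := inv_comm hxa
      calc x * y * x⁻¹ * a = x * y * (x⁻¹ * a) := by group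
        _ = x * (y * a) * x⁻¹ := by rw [hxa'']; group
        _ = (x * a) * y * x⁻¹ := by rw [hya']; group
        _ = a * (x * y * x⁻¹) := by rw [hxa]; group
    rw [Subgroup.mem_normalizer_iff]
    intro y
    refine ⟨fun hy => key x hxz' hxa' y hy, fun hy => ?_⟩
    have h4 := key x⁻¹ (inv_comm hxz') (inv_comm hxa') _ hy
    have h5 : x⁻¹ * (x * y * x⁻¹) * x⁻¹⁻¹ = y := by group
    rwa [h5] at h4
  exact IsPGroup.to_sup_of_normal_right' h2 h1 h3

set_option maxRecDepth 100000 in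
theorem perm_three_key : ∀ σ : Equiv.Perm (Fin 3), σ ≠ 1 → ∃ τ : Equiv.Perm (Fin 3),
    σ * (τ * σ * τ⁻¹) ≠ 1 ∧ (σ * (τ * σ * τ⁻¹)) * (σ * (τ * σ * τ⁻¹)) * (σ * (τ * σ * τ⁻¹)) = 1 := by
  decide

/-- `R = O₂(X)` -/
theorem R_eq_pCore (p : Pair Q z A a) :
    RR Q A z a = (Cfsg.pCore 2 ↥(Q ⊔ A)).map (Q ⊔ A).subtype := by
  have hpc := Cfsg.Agent.Lib.Cores.pCore_isPGroup (G := ↥(Q ⊔ A)) 2
  have hpn : (Cfsg.pCore 2 ↥(Q ⊔ A)).Normal := Cfsg.Agent.Lib.Cores.pCore_normal 2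
  apply le_antisymm
  · have h1 : ((RR Q A z a).subgroupOf (Q ⊔ A)) ≤ Cfsg.pCore 2 ↥(Q ⊔ A) := by
      apply Cfsg.Agent.Lib.Cores.le_pCore
      · rw [← actX_ker p]; infer_instance
      · exact (RR_isPGroup p).comap_subtype
    intro x hx
    exact ⟨⟨x, R_le_X Q A z a hx⟩, h1 (Subgroup.mem_subgroupOf.2 hx), rfl⟩
  · rintro _ ⟨x, hx, rfl⟩
    show (x : G) ∈ RR Q A z a
    rw [← actX_eq_one p]
    by_contra hne
    obtain ⟨τ, h1, h2'⟩ := perm_three_key _ hne
    have h2 : (actX p x * (τ * actX p x * τ⁻¹)) ^ 3 = 1 := by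
      rw [pow_succ, pow_two]; exact h2'
    clear h2'
    obtain ⟨t, rfl⟩ := actX_surjective p τ
    rw [← map_inv, ← map_mul, ← map_mul, ← map_mul] at h1 h2
    have hy : x * (t * x * t⁻¹) ∈ Cfsg.pCore 2 ↥(Q ⊔ A) := mul_mem hx (hpn.conj_mem x hx t)
    obtain ⟨k, hk⟩ := hpc ⟨_, hy⟩
    have hk' : (x * (t * x * t⁻¹)) ^ 2 ^ k = 1 := congrArg Subtype.val hk
    have hk'' : (actX p (x * (t * x * t⁻¹))) ^ 2 ^ k = 1 := by rw [← map_pow, hk', map_one]
    apply h1
    rw [← orderOf_eq_one_iff]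
    have h3 := orderOf_dvd_of_pow_eq_one h2
    have h4 := orderOf_dvd_of_pow_eq_one hk''
    exact Nat.eq_one_of_dvd_coprimes (by apply Nat.Coprime.pow_right; norm_num) h3 h4

/-- an element of `X` with prescribed action on `V` -/
theorem exists_X_conj (p : Pair Q z A a) {n : G}
    (hn : n ∈ Subgroup.normalizer ((Subgroup.closure ({z, a} : Set G) : Subgroup G) : Set G)) :
    ∃ x ∈ Q ⊔ A, (x⁻¹ * n) * z = z * (x⁻¹ * n) ∧ (x⁻¹ * n) * a = a * (x⁻¹ * n) := by
  obtain ⟨x, hx⟩ := actX_surjective p ((eT p).symm.permCongrHom (actT p ⟨n, hn⟩))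
  have h1 : ∀ i, (x : G) * (eT p i) * (x : G)⁻¹ = n * (eT p i) * n⁻¹ := by
    intro i
    rw [← actX_apply, hx]
    have : ((eT p).symm.permCongrHom (actT p ⟨n, hn⟩)) i = (eT p).symm (actT p ⟨n, hn⟩ (eT p i)) := rfl
    rw [this, Equiv.apply_symm_apply, actT_apply]
  refine ⟨x, x.2, ?_, ?_⟩
  · have h2 := h1 0
    rw [eT_zero] at h2
    calc ((x : G)⁻¹ * n) * z = (x : G)⁻¹ * (n * z * n⁻¹) * n := by group
      _ = (x : G)⁻¹ * (x * z * (x : G)⁻¹) * n := by rw [h2]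
      _ = z * ((x : G)⁻¹ * n) := by group
  · have h2 := h1 1
    rw [eT_one] at h2
    calc ((x : G)⁻¹ * n) * a = (x : G)⁻¹ * (n * a * n⁻¹) * n := by group
      _ = (x : G)⁻¹ * (x * a * (x : G)⁻¹) * n := by rw [h2]
      _ = a * ((x : G)⁻¹ * n) := by group

/-- `C_G(V) ≤ N_G(V)` -/
theorem cV_le_normV : Subgroup.centralizer ((Subgroup.closure ({z, a} : Set G) : Subgroup G) : Set G) ≤
    Subgroup.normalizer ((Subgroup.closure ({z, a} : Set G) : Subgroup G) : Set G) := by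
  intro c hc
  rw [Subgroup.mem_normalizer_iff]
  have h1 := Subgroup.mem_centralizer_iff.1 hc
  intro x
  constructor
  · intro hx
    have : c * x * c⁻¹ = x := by rw [← h1 x hx]; group
    rw [this]; exact hx
  · intro hx
    have h2 := h1 _ hx
    have : x = c * x * c⁻¹ := by
      calc x = c⁻¹ * ((c * x * c⁻¹) * c) := by group
        _ = c⁻¹ * (c * (c * x * c⁻¹)) := by rw [h2]
        _ = c * x * c⁻¹ := by group
    rw [this]; exact hx

/-- `N_G(V) = X C_G(V)` -/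
theorem normV_eq (p : Pair Q z A a) :
    Subgroup.normalizer ((Subgroup.closure ({z, a} : Set G) : Subgroup G) : Set G) =
      (Q ⊔ A) ⊔ (Subgroup.centralizer ({z} : Set G) ⊓
        Subgroup.centralizer ((Subgroup.closure ({z, a} : Set G) : Subgroup G) : Set G)) := by
  apply le_antisymm
  · intro n hn
    obtain ⟨x, hx, h1, h2⟩ := exists_X_conj p hn
    have : n = x * (x⁻¹ * n) := by group
    rw [this]
    exact Subgroup.mul_mem_sup hx ⟨Subgroup.mem_centralizer_singleton_iff.2 h1, mem_cV.2 ⟨h1, h2⟩⟩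
  · exact sup_le (X_le_normV p) (inf_le_right.trans cV_le_normV)

/-- `N_G(V)` normalises `X` -/
theorem X_normal (p : Pair Q z A a) {y x : G}
    (hy : y ∈ Subgroup.normalizer ((Subgroup.closure ({z, a} : Set G) : Subgroup G) : Set G))
    (hx : x ∈ Q ⊔ A) : y * x * y⁻¹ ∈ Q ⊔ A := by
  obtain ⟨w, hw, h1, h2⟩ := exists_X_conj p hy
  have h3 := comm_cV_X p h1 h2 hx
  have h4 : (w⁻¹ * y) * x * (w⁻¹ * y)⁻¹ ∈ Q ⊔ A := by
    have e : (w⁻¹ * y) * x * (w⁻¹ * y)⁻¹ = ((w⁻¹ * y) * x * (w⁻¹ * y)⁻¹ * x⁻¹) * x := by group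
    rw [e]
    exact mul_mem (R_le_X Q A z a h3) hx
  have e : y * x * y⁻¹ = w * ((w⁻¹ * y) * x * (w⁻¹ * y)⁻¹) * w⁻¹ := by group
  rw [e]
  exact mul_mem (mul_mem hw h4) (inv_mem hw)

end Cfsg.Agent.H823
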